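import Cfsg.Agent.H378.NilExp

/-!
# Exponents of groups of class two, `p` odd (helper13, S3435; after helper378's `cube`)

* `pow_two_class` : a group of class two generated by elements of order dividing `p` odd has exponent `p`;
* `pow_mem_two` : the same for joins of root groups.
-/

set_option autoImplicit false
set_option linter.unusedSectionVars false

namespace Cfsg.Agent.R2.Spec.X1.TD

open scoped commutatorElement
open Cfsg.Agent.H378.NilExp

universe u

section Grp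

variable {G : Type u} [Group G]

/-- `(a b) ^ n = d ^ (n choose 2) a ^ n b ^ n` for `b a = d a b`, `d` central -/
theorem mul_pow_central {a b d : G} (hd : ∀ g, d * g = g * d) (e : b * a = d * (a * b)) (n : ℕ) :
    (a * b) ^ n = d ^ n.choose 2 * (a ^ n * b ^ n) := by
  have hdn : ∀ (k : ℕ) (g : G), d ^ k * g = g * d ^ k := fun k g => ((show Commute d g from hd g).pow_left k).eq
  have hb : ∀ n : ℕ, b ^ n * a = d ^ n * (a * b ^ n) := by
    intro n
    induction n with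
    | zero => simp
    | succ n ih =>
      calc b ^ (n + 1) * a = b ^ n * (b * a) := by rw [pow_succ, mul_assoc]
        _ = b ^ n * (d * (a * b)) := by rw [e]
        _ = d * (b ^ n * (a * b)) := by rw [← mul_assoc, ← hd, mul_assoc]
        _ = d * ((b ^ n * a) * b) := by rw [mul_assoc (b ^ n)]
        _ = d * ((d ^ n * (a * b ^ n)) * b) := by rw [ih]
        _ = d ^ (n + 1) * (a * b ^ (n + 1)) := by rw [pow_succ' d, pow_succ b]; simp only [mul_assoc]
  induction n with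
  | zero => simp
  | succ n ih =>
    calc (a * b) ^ (n + 1) = (a * b) ^ n * (a * b) := pow_succ _ _
      _ = d ^ n.choose 2 * (a ^ n * b ^ n) * (a * b) := by rw [ih]
      _ = d ^ n.choose 2 * (a ^ n * ((b ^ n * a) * b)) := by simp only [mul_assoc]
      _ = d ^ n.choose 2 * (a ^ n * ((d ^ n * (a * b ^ n)) * b)) := by rw [hb]
      _ = d ^ n.choose 2 * ((a ^ n * d ^ n) * (a * b ^ n * b)) := by simp only [mul_assoc]
      _ = d ^ n.choose 2 * ((d ^ n * a ^ n) * (a * b ^ n * b)) := by rw [hdn n (a ^ n)]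
      _ = (d ^ n.choose 2 * d ^ n) * (a ^ (n + 1) * b ^ (n + 1)) := by
        rw [pow_succ a, pow_succ b]; simp only [mul_assoc]
      _ = d ^ (n + 1).choose 2 * (a ^ (n + 1) * b ^ (n + 1)) := by
        rw [← pow_add, Nat.choose_succ_succ' n 1, Nat.choose_one_right, add_comm]

/-- class two, exponent `p` odd -/
theorem pow_two_class {p : ℕ} (hp : p.Prime) (hp2 : p ≠ 2) {s : Set G} (hs : Subgroup.closure s = ⊤) {Z : Subgroup G}
    (hZ : ∀ z ∈ Z, ∀ x ∈ s, z * x = x * z)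
    (hc : ∀ x ∈ s, ∀ y ∈ s, ⁅x, y⁆ ∈ Z) (h3 : ∀ x ∈ s, x ^ p = 1) (x : G) : x ^ p = 1 := by
  have hcen : ∀ z ∈ Z, ∀ x : G, z * x = x * z := by
    intro z hz x
    have hx : x ∈ Subgroup.closure s := by rw [hs]; exact Subgroup.mem_top x
    induction hx using Subgroup.closure_induction with
    | mem x hx => exact hZ z hz x hx
    | one => rw [one_mul, mul_one]
    | mul a b _ _ ha hb => rw [← mul_assoc, ha, mul_assoc, hb, mul_assoc]
    | inv a _ ha => exact ((show Commute z a from ha).inv_right).eq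
  -- the elements of `Z` of order `p`
  let K : Subgroup G :=
    { carrier := {z | z ∈ Z ∧ z ^ p = 1}
      one_mem' := ⟨one_mem _, one_pow p⟩
      mul_mem' := fun {a b} ha hb => ⟨mul_mem ha.1 hb.1, by
        rw [(show Commute a b from hcen a ha.1 b).mul_pow, ha.2, hb.2, one_mul]⟩
      inv_mem' := fun {a} ha => ⟨inv_mem ha.1, by rw [inv_pow, ha.2, inv_one]⟩ }
  have hK : ∀ x ∈ s, ∀ y ∈ s, ⁅x, y⁆ ∈ K := by
    intro x hx y hy
    refine ⟨hc x hx y hy, ?_⟩
    set c := ⁅x, y⁆ with hcd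
    have hcc : ∀ g, c * g = g * c := hcen c (hc x hx y hy)
    have e : x * y = c * y * x := by rw [hcd, commutatorElement_def]; group
    have e1 : x * y * x⁻¹ = c * y := by rw [e]; group
    have e3 : ∀ n : ℕ, x ^ n * y * (x ^ n)⁻¹ = c ^ n * y := by
      intro n
      induction n with
      | zero => simp
      | succ n ih =>
        have hcn : c ^ n * x = x * c ^ n := ((show Commute c x from hcc x).pow_left n).eq
        calc x ^ (n + 1) * y * (x ^ (n + 1))⁻¹ = x * (x ^ n * y * (x ^ n)⁻¹) * x⁻¹ := by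
              rw [pow_succ']; group
          _ = x * (c ^ n * y) * x⁻¹ := by rw [ih]
          _ = (x * c ^ n) * y * x⁻¹ := by group
          _ = (c ^ n * x) * y * x⁻¹ := by rw [hcn]
          _ = c ^ n * (x * y * x⁻¹) := by group
          _ = c ^ n * (c * y) := by rw [e1]
          _ = c ^ (n + 1) * y := by rw [pow_succ, mul_assoc]
    have e4 := e3 p
    rw [h3 x hx, one_mul, inv_one, mul_one] at e4
    exact (mul_eq_right.1 e4.symm)
  -- all commutators are in `K`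
  have hK1 : ∀ y ∈ s, ∀ x : G, ⁅x, y⁆ ∈ K := by
    intro y hy x
    have hx : x ∈ Subgroup.closure s := by rw [hs]; exact Subgroup.mem_top x
    induction hx using Subgroup.closure_induction with
    | mem x hx => exact hK x hx y hy
    | one => rw [commutatorElement_one_left]; exact one_mem _
    | mul a b _ _ ha hb =>
      have e : ⁅a * b, y⁆ = ⁅b, y⁆ * ⁅a, y⁆ := by
        have h1 : ⁅a * b, y⁆ = a * ⁅b, y⁆ * a⁻¹ * ⁅a, y⁆ := by
          rw [commutatorElement_def, commutatorElement_def, commutatorElement_def]; group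
        rw [h1, ← hcen _ hb.1 a, mul_inv_cancel_right]
      rw [e]
      exact mul_mem hb ha
    | inv a _ ha =>
      have e : ⁅a⁻¹, y⁆ = ⁅a, y⁆⁻¹ := by
        have h1 : ⁅a⁻¹, y⁆ = a⁻¹ * ⁅a, y⁆⁻¹ * a := by
          rw [commutatorElement_def, commutatorElement_def]; group
        rw [h1, ← hcen _ (inv_mem ha.1) a⁻¹, mul_assoc, inv_mul_cancel, mul_one]
      rw [e]
      exact inv_mem ha
  have hK2 : ∀ x y : G, ⁅x, y⁆ ∈ K := by
    intro x y
    have hy : y ∈ Subgroup.closure s := by rw [hs]; exact Subgroup.mem_top y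
    induction hy using Subgroup.closure_induction with
    | mem y hy => exact hK1 y hy x
    | one => rw [commutatorElement_one_right]; exact one_mem _
    | mul a b _ _ ha hb =>
      have e : ⁅x, a * b⁆ = ⁅x, a⁆ * ⁅x, b⁆ := by
        have h1 : ⁅x, a * b⁆ = ⁅x, a⁆ * (a * ⁅x, b⁆ * a⁻¹) := by
          rw [commutatorElement_def, commutatorElement_def, commutatorElement_def]; group
        rw [h1, ← hcen _ hb.1 a, mul_inv_cancel_right]
      rw [e]
      exact mul_mem ha hb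
    | inv a _ ha =>
      have e : ⁅x, a⁻¹⁆ = ⁅x, a⁆⁻¹ := by
        have h1 : ⁅x, a⁻¹⁆ = a⁻¹ * ⁅x, a⁆⁻¹ * a := by
          rw [commutatorElement_def, commutatorElement_def]; group
        rw [h1, ← hcen _ (inv_mem ha.1) a⁻¹, mul_assoc, inv_mul_cancel, mul_one]
      rw [e]
      exact inv_mem ha
  have hx : x ∈ Subgroup.closure s := by rw [hs]; exact Subgroup.mem_top x
  induction hx using Subgroup.closure_induction with
  | mem x hx => exact h3 x hx
  | one => exact one_pow p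
  | mul a b _ _ ha hb =>
    obtain ⟨hd, hd3⟩ := hK2 b a
    set d := ⁅b, a⁆ with hdd
    have hdc : ∀ g, d * g = g * d := hcen d hd
    have e : b * a = d * (a * b) := by rw [hdd, commutatorElement_def]; group
    rw [mul_pow_central hdc e, ha, hb, one_mul, mul_one]
    have h4 : p ∣ p.choose 2 := hp.dvd_choose_self two_ne_zero (by
      have := hp.two_le
      omega)
    obtain ⟨c, hc⟩ := h4
    rw [hc, pow_mul, hd3, one_pow]
  | inv a _ ha => rw [inv_pow, ha, inv_one]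

theorem pow_mem_two_of_gen {p : ℕ} (hp : p.Prime) (hp2 : p ≠ 2) {s : Set G} {N Z : Subgroup G}
    (hN : Subgroup.closure s ≤ Subgroup.normalizer (N : Set G))
    (hZs : ∀ z ∈ Z, ∀ x ∈ s, ⁅z, x⁆ ∈ N) (hc : ∀ x ∈ s, ∀ y ∈ s, ⁅x, y⁆ ∈ Z) (h3 : ∀ x ∈ s, x ^ p ∈ N) {x : G}
    (hx : x ∈ Subgroup.closure s) : x ^ p ∈ N := by
  obtain ⟨Q, _, π, h1, h2⟩ := exists_quot hN
  have h3 := pow_two_class hp hp2 h2 (Z := (Z.subgroupOf (Subgroup.closure s)).map π) (by
    rintro _ ⟨z, hz, rfl⟩ _ ⟨x, hx, rfl⟩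
    rw [← commutatorElement_eq_one_iff_mul_comm, ← map_commutatorElement, h1]
    exact hZs _ hz _ hx) (by
    rintro _ ⟨x, hx, rfl⟩ _ ⟨y, hy, rfl⟩
    rw [← map_commutatorElement]
    exact ⟨⁅x, y⁆, hc _ hx _ hy, rfl⟩) (by
    rintro _ ⟨x, hx, rfl⟩
    rw [← map_pow, h1]
    exact h3 _ hx) (π ⟨x, hx⟩)
  rw [← map_pow, h1] at h3
  exact h3

end Grp

section Sup

open Cfsg.Agent.KFacts.RgdField

variable {I Y : Type*} [Fintype I] [DecidableEq I] [Group Y] {X : (I → ℤ) → Subgroup Y} {S S₁ S' : Set (I → ℤ)}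

theorem pow_mem_two {p : ℕ} (hp : p.Prime) (hp2 : p ≠ 2) (hSS₁ : S₁ ⊆ S) (hSS : S' ⊆ S₁)
    (hc : ∀ a ∈ S, ∀ b ∈ S, ∀ x ∈ X a, ∀ y ∈ X b, ⁅x, y⁆ ∈ Cfsg.Agent.Nodes.BNOf.RGD.Sup X S₁)
    (hc' : ∀ a ∈ S₁, ∀ b ∈ S, ∀ x ∈ X a, ∀ y ∈ X b, ⁅x, y⁆ ∈ Cfsg.Agent.Nodes.BNOf.RGD.Sup X S')
    (hpp : ∀ a ∈ S, ∀ x ∈ X a, x ^ p = 1) {x : Y} (hx : x ∈ Cfsg.Agent.Nodes.BNOf.RGD.Sup X S) :
    x ^ p ∈ Cfsg.Agent.Nodes.BNOf.RGD.Sup X S' := by
  have hN := le_normalizer_of (S := S) (S' := S') fun a ha b hb x hx y hy => by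
    have h1 := hc' b (hSS hb) a ha y hy x hx
    rw [← commutatorElement_inv]
    exact inv_mem h1
  have hN₁ := le_trans (Cfsg.Agent.Nodes.BNOf.RGD.Sup_mono (X := X) hSS₁) hN
  have hcc : ∀ z ∈ Cfsg.Agent.Nodes.BNOf.RGD.Sup X S₁, ∀ b ∈ S, ∀ x ∈ X b, ⁅z, x⁆ ∈ Cfsg.Agent.Nodes.BNOf.RGD.Sup X S' :=
    fun z hz b hb x hx => comm_Sup hN₁ (fun a ha y hy => hc' a ha b hb y hy x hx) hz
  rw [Sup_eq_closure X S] at hx hN
  refine pow_mem_two_of_gen hp hp2 (Z := Cfsg.Agent.Nodes.BNOf.RGD.Sup X S₁) hN ?_ ?_ ?_ hx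
  · rintro z hz x ⟨b, hb, hx⟩
    exact hcc z hz b hb x hx
  · rintro x ⟨a, ha, hx⟩ y ⟨b, hb, hy⟩
    exact hc a ha b hb x hx y hy
  · rintro x ⟨a, ha, hx⟩
    rw [hpp a ha x hx]
    exact one_mem _

end Sup

end Cfsg.Agent.R2.Spec.X1.TD
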