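import Cfsg.Agent.R2.Spec.X1.TD.OmTor
import Cfsg.Agent.H378.TorFin
import Cfsg.Agent.R2.Spec.X1.TD.Spec

/-!
# The element orders of `³D₄(q)`, `q` a power of `p ≥ 5` (helper13, S3435; after helper378)

* `om_3D4` : the order of every element of `³D₄(q)` divides one of the numbers in `Om p q`.
-/

set_option autoImplicit false
set_option linter.unusedSectionVars false

namespace Cfsg.Agent.R2.Spec.X1.TD

open Cfsg Cfsg.Lie Cfsg.Lie.ChevalleyDatum
open Cfsg.Agent.H129.TriD4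
open Cfsg.Agent.H378

universe u

theorem dvd_of_pow_eq {G : Type*} [Group G] {s : G} {A B C : ℕ} (h : s ^ A = s ^ B) (e : A = B + C) :
    orderOf s ∣ C := by
  rw [e, pow_add] at h
  exact orderOf_dvd_of_pow_eq_one (mul_eq_left.1 h)

/-- **The spectrum of `³D₄(q)`.** -/
theorem om_3D4 {K : Type u} [Field K] [Fintype K] {p q : ℕ} (h : Par p q) (hK : Fintype.card K = q ^ 3)
    [CharP K p] (g : ↥(twistedD4 K q)) : Om p q (orderOf g) := by
  obtain ⟨k, _, _, f, p', _, hC, _, hk, hka, -, -⟩ := TorFin.exists_closure K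
  have hpp : p' = p := by
    have h1 : CharP k p := charP_of_injective_ringHom f.injective p
    exact CharP.eq k hC h1
  subst hpp
  obtain ⟨e, he, hqe⟩ := h.hk
  have hp : p'.Prime := h.prime
  set a := embT (k := k) f h.isPrimePow hK g with ha
  have hσa : tau k p' e a = a := tau_embT f hqe h.isPrimePow hK g
  have hoa : orderOf a = orderOf g := orderOf_injective _ (embT_injective f h.isPrimePow hK) g
  have hn0 : orderOf g ≠ 0 := (orderOf_pos g).ne'
  obtain ⟨j, m, hpm, hn⟩ := Nat.exists_eq_pow_mul_and_not_dvd hn0 p' hp.ne_one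
  have hm0 : m ≠ 0 := by
    rintro rfl
    rw [mul_zero] at hn
    exact hn0 hn
  have hpj : 0 < p' ^ j := pow_pos hp.pos j
  have hos : orderOf (a ^ p' ^ j) = m := by
    rw [orderOf_pow' _ hpj.ne', hoa, hn, Nat.gcd_mul_right_left, Nat.mul_div_cancel_left _ hpj]
  have hou : orderOf (a ^ m) = p' ^ j := by
    rw [orderOf_pow' _ hm0, hoa, hn, Nat.gcd_mul_left_left, Nat.mul_div_cancel _ (Nat.pos_of_ne_zero hm0)]
  have hmp : m.Coprime p' := ((Nat.Prime.coprime_iff_not_dvd hp).2 hpm).symm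
  have key := main_odd (k := k) (p := p') (e := e) (by have := h.h5; omega) hk hka (s := a ^ p' ^ j) (u := a ^ m)
    (by rw [map_pow, hσa])
    (by rw [← pow_add, ← pow_add, add_comm]) hm0 hmp
    (by rw [← pow_mul, ← hn, ← hoa, pow_orderOf_eq_one]) (j := j)
    (by rw [← pow_mul, mul_comm, ← hn, ← hoa, pow_orderOf_eq_one])
  rw [← hqe] at key
  obtain ⟨c, hc⟩ := h.exists_add
  have e1 : q ^ 4 + q ^ 3 = (q + 1) + (q ^ 3 - 1) * (q + 1) := by
    obtain ⟨d, hd⟩ : ∃ d, q ^ 3 = d + 1 := ⟨q ^ 3 - 1, by have := Nat.one_le_pow 3 q (by omega); omega⟩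
    rw [show q ^ 4 = q ^ 3 * q by ring, hd, Nat.add_sub_cancel]; ring
  have e2 : q ^ 4 + q = (q ^ 3 + 1) + (q ^ 3 + 1) * (q - 1) := by
    rw [hc, show c + 3 - 1 = c + 2 by omega]; ring
  have e3 : q ^ 4 + 1 = q ^ 2 + mm q := by
    unfold mm
    have : q ^ 2 ≤ q ^ 4 := Nat.pow_le_pow_right (by omega) (by norm_num)
    omega
  have e4 : q ^ 2 + 1 = q + (q ^ 2 - q + 1) := by
    have : q ≤ q ^ 2 := by nlinarith
    omega
  have e5 : q ^ 3 = 1 + (q ^ 3 - 1) := by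
    have := Nat.one_le_pow 3 q (by omega)
    omega
  have e6 : q ^ 3 - 1 = (q ^ 2 + q + 1) * (q - 1) := by
    rw [hc, show c + 3 - 1 = c + 2 by omega]
    apply Nat.sub_eq_of_eq_add
    ring
  have e7 : q ^ 3 + 1 = (q ^ 2 - q + 1) * (q + 1) := by
    have e8 : q ^ 2 - q = q * (q - 1) := by rw [Nat.mul_sub, mul_one, pow_two]
    rw [e8, hc, show c + 3 - 1 = c + 2 by omega]
    ring
  rcases key with ⟨hu, hs⟩ | ⟨hs, hu2⟩ | ⟨hu, hs⟩ | ⟨hu, hs⟩
  · -- semisimple elements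
    rw [hu, orderOf_one] at hou
    rw [hn, ← hou, one_mul, ← hos]
    rcases hs with hs | hs | hs
    · exact Or.inr (Or.inl (dvd_of_pow_eq hs e1))
    · exact Or.inr (Or.inr (Or.inl (dvd_of_pow_eq hs e2)))
    · exact Or.inl (dvd_of_pow_eq hs e3)
  · -- unipotent elements
    rw [hs, orderOf_one] at hos
    rw [hn, ← hos, mul_one, ← hou]
    exact Or.inr (Or.inr (Or.inr (Or.inr (Or.inr (orderOf_dvd_of_pow_eq_one hu2)))))
  · have h1 : p' ^ j ∣ p' := hou ▸ orderOf_dvd_of_pow_eq_one hu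
    rcases hs with hs | hs
    · have h2 : m ∣ q ^ 3 - 1 := hos ▸ dvd_of_pow_eq (B := 1) (by rw [pow_one]; exact hs) e5
      rw [hn]
      exact Or.inr (Or.inr (Or.inr (Or.inl (mul_dvd_mul h1 h2))))
    · have h2 : m ∣ q ^ 3 + 1 := hos ▸ orderOf_dvd_of_pow_eq_one hs
      rw [hn]
      exact Or.inr (Or.inr (Or.inr (Or.inr (Or.inl (mul_dvd_mul h1 h2)))))
  · have h1 : p' ^ j ∣ p' := hou ▸ orderOf_dvd_of_pow_eq_one hu
    rcases hs with hs | hs
    · have h2 : m ∣ q ^ 2 + q + 1 := hos ▸ orderOf_dvd_of_pow_eq_one hs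
      rw [hn]
      exact Or.inr (Or.inr (Or.inr (Or.inl (mul_dvd_mul h1 (h2.trans (e6 ▸ dvd_mul_right _ _))))))
    · have h2 : m ∣ q ^ 2 - q + 1 := hos ▸ dvd_of_pow_eq hs e4
      rw [hn]
      exact Or.inr (Or.inr (Or.inr (Or.inr (Or.inl (mul_dvd_mul h1 (h2.trans (e7 ▸ dvd_mul_right _ _)))))))

end Cfsg.Agent.R2.Spec.X1.TD
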